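import Cfsg.Agent.H86.Zipper
import Mathlib.GroupTheory.SemidirectProduct

/-!
If an element `a` normally generates a finite group, then `a` together with the values of any
iterate of `x ↦ x * a * x⁻¹` generates it.
-/

set_option autoImplicit false

open Pointwise

namespace Cfsg.Agent.H64.Zip

open Subgroup Cfsg.Agent.H86

universe u

/-- The conjugation map at `a`. -/
def conjAt {A : Type*} [Group A] (a x : A) : A := x * a * x⁻¹

theorem map_iterate {A B : Type*} [Group A] [Group B] (f : A →* B) (a : A) (k : ℕ) (x : A) :
    f ((conjAt a)^[k] x) = (conjAt (f a))^[k] (f x) := by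
  induction k generalizing x with
  | zero => rfl
  | succ k ih =>
    rw [Function.iterate_succ_apply, Function.iterate_succ_apply, ih]
    simp [conjAt]

/-- If `a` normally generates, the values of an iterate of `conjAt a` and `a` generate. -/
theorem closure_iterate_eq_top (k : ℕ) : ∀ (A : Type u) [Group A] [Finite A] (a : A),
    normalClosure ((zpowers a : Subgroup A) : Set A) = ⊤ →
      closure (insert a (Set.range ((conjAt a)^[k]))) = ⊤ := by
  suffices H : ∀ (n : ℕ) (A : Type u) [Group A] [Finite A] (a : A), Nat.card A ≤ n →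
      normalClosure ((zpowers a : Subgroup A) : Set A) = ⊤ →
        closure (insert a (Set.range ((conjAt a)^[k]))) = ⊤ from
    fun A _ _ a h => H _ A a le_rfl h
  intro n
  induction n with
  | zero =>
    intro A _ _ a hcard _
    have := Nat.card_pos (α := A)
    omega
  | succ n ih =>
    intro A _ _ a hcard hcl
    by_contra hne
    set B : Subgroup A := closure (insert a (Set.range ((conjAt a)^[k]))) with hB
    have haB : a ∈ B := subset_closure (Set.mem_insert _ _)
    have hgen : sSup (Zipper.GenSet (zpowers a)) ≤ B := by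
      refine sSup_le ?_
      rintro H ⟨haH, hHt, hH⟩
      have haH' : a ∈ H := haH (mem_zpowers a)
      have hsub : (zpowers (⟨a, haH'⟩ : H)) = (zpowers a).subgroupOf H := by
        ext x
        simp only [mem_subgroupOf, mem_zpowers_iff, ← Subtype.coe_inj, coe_zpow]
      have hcard' : Nat.card H ≤ n := by
        have hlt : Nat.card H < Nat.card A :=
          lt_of_le_of_ne H.card_le_card_group (fun e => hHt (eq_top_of_card_eq H e))
        omega
      have h := ih H ⟨a, haH'⟩ hcard' (by rw [hsub]; exact (Zipper.gen_iff haH).2 hH)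
      intro x hx
      have hx' : (⟨x, hx⟩ : H) ∈ closure (insert (⟨a, haH'⟩ : H)
          (Set.range ((conjAt (⟨a, haH'⟩ : H))^[k]))) := h ▸ mem_top _
      have := mem_map_of_mem H.subtype hx'
      rw [MonoidHom.map_closure] at this
      refine closure_mono ?_ this
      rintro _ ⟨y, hy | ⟨z, rfl⟩, rfl⟩
      · exact Set.mem_insert_iff.2 (Or.inl (by rw [hy]; rfl))
      · exact Or.inr ⟨H.subtype z, (map_iterate H.subtype ⟨a, haH'⟩ k z).symm⟩
    have hA : zpowers a ≠ ⊤ := fun e => hne (top_le_iff.1 (e ▸ zpowers_le.2 haB))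
    obtain ⟨M, ⟨hM, haM⟩, huniq⟩ := Zipper.join_or_unique (zpowers a) hcl hA
      (fun e => hne (top_le_iff.1 (e ▸ hgen)))
    obtain ⟨N, hN, hBN⟩ := Zipper.exists_coatom_ge hne
    obtain rfl := huniq N ⟨hN, (zpowers_le.2 haB).trans hBN⟩
    have hnorm : normalizer (N : Set A) = N :=
      Zipper.coatom_eq hN (Zipper.normalizer_ne_top hcl haM hN.1) le_normalizer
    have hstep : ∀ y : A, conjAt a y ∈ N → y ∈ N := by
      intro y hy
      have h1 : zpowers a ≤ MulAut.conj y⁻¹ • N :=
        zpowers_le.2 (Zipper.mem_conj_smul.2 (by simpa [conjAt] using hy))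
      have h2 := huniq _ ⟨Zipper.isCoatom_conj y⁻¹ hN, h1⟩
      have h3 : y⁻¹ ∈ N := hnorm ▸ Zipper.mem_normalizer_of_conj_eq h2
      simpa using N.inv_mem h3
    have hiter : ∀ (j : ℕ) (x : A), (conjAt a)^[j] x ∈ N → x ∈ N := by
      intro j
      induction j with
      | zero => exact fun x hx => hx
      | succ j ihj =>
        intro x hx
        rw [Function.iterate_succ_apply] at hx
        exact hstep x (ihj _ hx)
    exact hN.1 (eq_top_iff.2 fun x _ =>
      hiter k x (hBN (subset_closure (Or.inr ⟨x, rfl⟩))))

/-- The iterated `g ↦ g * (α g)⁻¹` generate `G` when the first ones do. -/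
theorem closure_iterate_commutator {G : Type u} [Group G] [Finite G] (α : MulAut G)
    (hG : closure (Set.range (fun c : G => c * (α c)⁻¹)) = ⊤) (k : ℕ) (hk : 1 ≤ k) :
    closure (Set.range ((fun c : G => c * (α c)⁻¹)^[k])) = ⊤ := by
  set f : G → G := fun c => c * (α c)⁻¹ with hf
  let φ : ↥(zpowers α) →* MulAut G := (zpowers α).subtype
  have : Finite (SemidirectProduct G ↥(zpowers α) φ) :=
    Finite.of_equiv _ SemidirectProduct.equivProd.symm
  let a : SemidirectProduct G ↥(zpowers α) φ := SemidirectProduct.inr ⟨α, mem_zpowers α⟩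
  have hconj : ∀ y, conjAt a y = SemidirectProduct.inl (f y.left) * a := by
    intro y
    obtain ⟨i, hi⟩ := mem_zpowers_iff.1 y.right.2
    have hc : Commute y.right ⟨α, mem_zpowers α⟩ :=
      Subtype.ext (by simpa [← hi] using ((Commute.refl α).zpow_left i).eq)
    have hc' : y.right * ⟨α, mem_zpowers α⟩ * y.right⁻¹ = (⟨α, mem_zpowers α⟩ : ↥(zpowers α)) := by
      rw [hc.eq, mul_inv_cancel_right]
    refine SemidirectProduct.ext ?_ ?_
    · simp only [conjAt, a, hf, SemidirectProduct.mul_left, SemidirectProduct.mul_right,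
        SemidirectProduct.inv_left, SemidirectProduct.left_inr, SemidirectProduct.right_inr,
        SemidirectProduct.left_inl, SemidirectProduct.right_inl, map_one, mul_one]
      rw [← MulAut.mul_apply, ← map_mul, hc', map_inv]
      rfl
    · simp only [conjAt, a, SemidirectProduct.mul_right, SemidirectProduct.inv_right,
        SemidirectProduct.right_inr, SemidirectProduct.right_inl, one_mul]
      exact hc'
  have hleft : ∀ g : G, (SemidirectProduct.inl g * a).left = g := fun g => by simp [a]
  have hiter : ∀ (j : ℕ) y,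
      (conjAt a)^[j + 1] y = SemidirectProduct.inl (f^[j + 1] y.left) * a := by
    intro j
    induction j with
    | zero => exact hconj
    | succ j ih =>
      intro y
      rw [Function.iterate_succ_apply' (conjAt a), ih, hconj, hleft,
        ← Function.iterate_succ_apply' f]
  have hcl : normalClosure ((zpowers a : Subgroup (SemidirectProduct G ↥(zpowers α) φ)) : Set (SemidirectProduct G ↥(zpowers α) φ)) = ⊤ := by
    have ha : a ∈ normalClosure ((zpowers a : Subgroup _) : Set (SemidirectProduct G ↥(zpowers α) φ)) :=
      subset_normalClosure (mem_zpowers a)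
    have hl : (⊤ : Subgroup G) ≤ (normalClosure ((zpowers a : Subgroup _) :
        Set (SemidirectProduct G ↥(zpowers α) φ))).comap SemidirectProduct.inl := by
      rw [← hG, closure_le]
      rintro _ ⟨g, rfl⟩
      have h1 := normalClosure_normal.conj_mem _ ha (SemidirectProduct.inl g)
      have h2 := hconj (SemidirectProduct.inl g)
      rw [conjAt] at h2
      rw [h2] at h1
      simpa [hf] using mul_mem h1 (inv_mem ha)
    refine eq_top_iff.2 fun y _ => ?_
    obtain ⟨i, hi⟩ := mem_zpowers_iff.1 y.right.2
    rw [← SemidirectProduct.inl_left_mul_inr_right y,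
      show y.right = (⟨α, mem_zpowers α⟩ : zpowers α) ^ i from Subtype.ext (by simp [hi]), map_zpow]
    exact mul_mem (hl (mem_top y.left)) (zpow_mem ha i)
  have htop := closure_iterate_eq_top k _ a hcl
  set W := closure (Set.range (f^[k])) with hW
  have hWa : W ≤ W.comap (α : G ≃* G).toMonoidHom := by
    rw [hW, closure_le]
    rintro _ ⟨x, rfl⟩
    refine subset_closure ⟨α x, ?_⟩
    exact ((Function.Semiconj.iterate_right (f := (α : G → G)) (ga := f) (gb := f)
      (fun c => by simp [hf]) k) x).symm
  let K : Subgroup (MulAut G) := MulAction.stabilizer (MulAut G) W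
  have hαW : α ∈ K := by
    show α • W = W
    refine eq_of_le_of_card_ge ?_ (le_of_eq ?_)
    · rintro _ ⟨x, hx, rfl⟩
      exact hWa hx
    · exact (Subgroup.card_map_of_injective (MulEquiv.injective α)).symm
  have hβ : ∀ (b : ↥(zpowers α)) (w : G), w ∈ W → φ b w ∈ W := by
    intro b w hw
    have h : (b : MulAut G) • W = W := (zpowers_le.2 hαW) b.2
    rw [← h]
    exact Subgroup.smul_mem_pointwise_smul w _ W hw
  let L : Subgroup (SemidirectProduct G ↥(zpowers α) φ) :=
    { carrier := {y | y.left ∈ W}
      one_mem' := by simp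
      mul_mem' := fun {x y} hx hy => by
        simp only [Set.mem_ofPred_eq, SemidirectProduct.mul_left] at *
        exact mul_mem hx (hβ _ _ hy)
      inv_mem' := fun {x} hx => by
        simp only [Set.mem_ofPred_eq, SemidirectProduct.inv_left] at *
        exact hβ _ _ (inv_mem hx) }
  obtain ⟨j, rfl⟩ := Nat.exists_eq_add_of_le' hk
  have hL : (⊤ : Subgroup (SemidirectProduct G ↥(zpowers α) φ)) ≤ L := by
    rw [← htop, closure_le]
    refine Set.insert_subset ?_ ?_
    · show a.left ∈ W
      simp [a]
    · rintro _ ⟨y, rfl⟩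
      show ((conjAt a)^[j + 1] y).left ∈ W
      rw [hiter]
      rw [hleft]
      exact subset_closure ⟨y.left, rfl⟩
  refine eq_top_iff.2 fun g _ => ?_
  simpa [L] using (hL (mem_top (SemidirectProduct.inl g)) : (SemidirectProduct.inl (φ := φ) g).left ∈ W)

end Cfsg.Agent.H64.Zip
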